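import Cfsg.Agent.H745.J3A.RZero

/-!
# The action of `S` on `R₀` (S5175, StJA; helper745)
-/
set_option autoImplicit false

namespace Cfsg.Agent.H745.J3A

open Cfsg.Agent.J2Type.QStruct Cfsg.Agent.J2Type.Model Cfsg Cfsg.Agent.H770.Hen Cfsg.Agent.H802
open Equiv (Perm)

section
variable {Ω : Type*} [Group Ω] {K : Type} [Field K] {σ : K ≃+* K} (R : Rel Ω K σ)
variable {w : K} (O : Om w) (hf : ∀ a, σ a = a * a) (hy : R.y * R.y = 1)

include O hy in
theorem ext : Ext (zz R hf) (vv R hf w) := by
  have hz0 : ∀ x : R.R0, (x : Ω) ≠ dd R 0 0 → x ≠ 1 := by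
    intro x hx h
    apply hx
    rw [h, dd_zero]; rfl
  apply ext_of
  · apply hz0
    rw [zz_coe]
    intro h
    exact one_ne_zero (dd_inj R h).2
  · apply Subtype.ext
    rw [Subgroup.coe_mul, zz_coe, dd_mul R O, Subgroup.coe_one, ← dd_zero R]
    congr 1
    · ring
    · linear_combination O.two
  · intro c
    apply Subtype.ext
    rw [Subgroup.coe_mul, Subgroup.coe_mul, zz_coe]
    obtain ⟨a, c', h | h⟩ := (mem_R0 R hf).1 c.2
    · rw [h, dd_mul R O, dd_mul R O]
      congr 1
      · ring
      · ring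
    · rw [h, ddy_dd R O hf, dd_ddy R O]
      congr 2
      · ring
      · ring
  · exact five R O hf hy
  · intro i
    induction i using Fin.cases with
    | zero =>
      constructor
      · apply hz0
        rw [vv_zero]
        intro h
        exact O.w0 (dd_inj R h).2
      · intro h
        have h1 := congrArg Subtype.val h
        rw [vv_zero, zz_coe] at h1
        exact O.w1 (dd_inj R h1).2
    | succ i =>
      constructor
      · apply hz0
        rw [vv_succ]
        exact ddy_ne R _ _ _ _
      · intro h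
        have h1 := congrArg Subtype.val h
        rw [vv_succ, zz_coe] at h1
        exact ddy_ne R _ _ _ _ h1
  · intro i j hij
    induction i using Fin.cases with
    | zero =>
      induction j using Fin.cases with
      | zero => exact absurd rfl hij
      | succ j =>
        constructor
        · intro h
          have h1 := congrArg Subtype.val h
          rw [vv_zero, vv_succ] at h1
          exact ddy_ne R _ _ _ _ h1.symm
        · intro h
          have h1 := congrArg Subtype.val h
          rw [vv_zero, Subgroup.coe_mul, vv_succ, zz_coe, dd_ddy R O] at h1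
          exact ddy_ne R _ _ _ _ h1.symm
    | succ i =>
      induction j using Fin.cases with
      | zero =>
        constructor
        · intro h
          have h1 := congrArg Subtype.val h
          rw [vv_zero, vv_succ] at h1
          exact ddy_ne R _ _ _ _ h1
        · intro h
          have h1 := congrArg Subtype.val h
          rw [vv_succ, Subgroup.coe_mul, vv_zero, zz_coe, dd_mul R O] at h1
          exact ddy_ne R _ _ _ _ h1
      | succ j =>
        have hne : ka w i ≠ ka w j := fun h => hij (congrArg Fin.succ (ka_inj O h))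
        constructor
        · intro h
          have h1 := congrArg Subtype.val h
          rw [vv_succ, vv_succ] at h1
          exact hne (dd_inj R (mul_right_cancel h1)).1
        · intro h
          have h1 := congrArg Subtype.val h
          rw [vv_succ, Subgroup.coe_mul, vv_succ, zz_coe, dd_ddy R O] at h1
          have h2 := (dd_inj R (mul_right_cancel h1)).1
          rw [zero_add] at h2
          exact hne h2

/-! ## Shifts -/

/-- `π` fixes `0` and acts on `1, 2, 3, 4` as the translation by `t` -/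
def Sh (w t : K) (π : Perm (Fin 5)) : Prop :=
  π 0 = 0 ∧ ∀ i : Fin 4, ∃ j : Fin 4, π i.succ = j.succ ∧ ka w j = ka w i + t

theorem pa : ∀ π : Perm (Fin 5), π * π = 1 → π 0 = 0 → (∀ i : Fin 4, π i.succ ≠ i.succ) → Perm.sign π = 1 := by
  decide +kernel

theorem pb : ∀ x : Perm (Fin 5), Perm.sign x = 1 → x * x = 1 → x 0 = 0 → ∀ y : Perm (Fin 5), Perm.sign y = 1 →
    y * y = 1 → y 0 = 0 → x 1 = y 1 → x = y := by
  decide +kernel

include O in
theorem Sh.sq {t : K} {π : Perm (Fin 5)} (h : Sh w t π) : π * π = 1 := by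
  apply Equiv.ext
  intro i
  rw [Perm.mul_apply, Perm.one_apply]
  induction i using Fin.cases with
  | zero => rw [h.1, h.1]
  | succ i =>
    obtain ⟨j, h1, h2⟩ := h.2 i
    obtain ⟨k, h3, h4⟩ := h.2 j
    rw [h1, h3]
    congr 1
    apply ka_inj O
    rw [h4, h2]
    linear_combination O.aa t

include O in
theorem Sh.sign {t : K} {π : Perm (Fin 5)} (h : Sh w t π) : Perm.sign π = 1 := by
  by_cases ht : t = 0
  · have : π = 1 := by
      apply Equiv.ext
      intro i
      rw [Perm.one_apply]
      induction i using Fin.cases with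
      | zero => rw [h.1]
      | succ i =>
        obtain ⟨j, h1, h2⟩ := h.2 i
        rw [h1]
        congr 1
        apply ka_inj O
        rw [h2, ht, add_zero]
    rw [this, map_one]
  · apply pa π (Sh.sq O h) h.1
    intro i hi
    obtain ⟨j, h1, h2⟩ := h.2 i
    rw [h1] at hi
    have h3 := Fin.succ_injective _ hi
    rw [h3] at h2
    exact ht (by linear_combination -h2)

/-! ## The action of `S` -/

theorem e_conj_ddy (a b c x c' : K) (hf : ∀ a, σ a = a * a) : ∃ c'', R.e a b c * (dd R x c' * R.y) * (R.e a b c)⁻¹ =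
    R.e (a + x + b * b) (b + x * x + a * a) c'' * R.y := by
  unfold dd
  have h1 : R.e a b c * (R.e x (x * x) c' * R.y) * (R.e a b c)⁻¹ =
      R.e a b c * R.e x (x * x) c' * (R.y * (R.e a b c)⁻¹ * R.y⁻¹) * R.y := by group
  rw [h1, R.e_inv, R.y_e, R.e_mul, R.e_mul, hf, hf, show a + x + b * b = a + x + -b * -b by ring,
    show b + x * x + a * a = b + x * x + -a * -a by ring]
  exact ⟨_, rfl⟩

include O hf in
theorem e_conj_mem (a b c : K) {x : Ω} (hx : x ∈ R.R0) : R.e a b c * x * (R.e a b c)⁻¹ ∈ R.R0 := by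
  rw [mem_R0 R hf] at hx ⊢
  obtain ⟨a', c', rfl | rfl⟩ := hx
  · refine ⟨a', c' + a * (a' * a') - a' * b, Or.inl ?_⟩
    unfold dd
    rw [R.e_conj]
  · obtain ⟨c'', h⟩ := e_conj_ddy R a b c a' c' hf
    refine ⟨a + a' + b * b, c'', Or.inr ?_⟩
    rw [h]
    unfold dd
    congr 2
    have := O.four b
    linear_combination (-(a * a') - a * b ^ 2 - a' * b ^ 2) * O.two - this

include hf in
theorem y_mem : R.y ∈ R.R0 := by
  rw [mem_R0 R hf]
  exact ⟨0, 0, Or.inr (by rw [dd_zero, one_mul])⟩

/-- the shift attached to `e(a,b,c)` -/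
theorem sh_of {ρ : MulAut R.R0 →* SP}
    (hρ : ∀ α i, α (vv R hf w i) = zp (zz R hf) ((ρ α).s i) * vv R hf w ((ρ α).σ i)) (X : Ext (zz R hf) (vv R hf w))
    {a b c : K} {α : MulAut R.R0} (hα : ∀ x : R.R0, ((α x : R.R0) : Ω) = R.e a b c * x * (R.e a b c)⁻¹) :
    Sh w (a + b * b) (ρ α).σ := by
  have h0 : (ρ α).σ 0 = 0 := by
    have h1 : α (vv R hf w 0) = zp (zz R hf) 0 * vv R hf w 0 := by
      apply Subtype.ext
      rw [hα, zp_zero, one_mul, vv_zero]
      unfold dd
      rw [R.e_conj]
      congr 1
      ring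
    rw [hρ] at h1
    exact (inj_v X.hyp X.d3 _ _ _ _ h1).2
  refine ⟨h0, fun i => ?_⟩
  have h1 := congrArg Subtype.val (hρ α i.succ)
  rw [hα, vv_succ] at h1
  obtain ⟨c'', h2⟩ := e_conj_ddy R a b c (ka w i) 0 hf
  rw [h2] at h1
  obtain ⟨j, hj⟩ : ∃ j : Fin 4, (ρ α).σ i.succ = j.succ := by
    refine ⟨((ρ α).σ i.succ).pred ?_, (Fin.succ_pred _ _).symm⟩
    intro h3
    rw [← h0] at h3
    exact (Fin.succ_ne_zero i) ((ρ α).σ.injective h3)
  refine ⟨j, hj, ?_⟩
  rw [hj, Subgroup.coe_mul, vv_succ] at h1
  rcases zmod2_cases ((ρ α).s i.succ) with h3 | h3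
  · rw [h3, zp_zero, Subgroup.coe_one, one_mul] at h1
    have h4 := R.e_inj (mul_right_cancel h1)
    linear_combination -h4.1
  · rw [h3, zp_one, zz_coe] at h1
    unfold dd at h1
    rw [← mul_assoc, R.e_mul] at h1
    have h4 := R.e_inj (mul_right_cancel h1)
    linear_combination -h4.1

end

end Cfsg.Agent.H745.J3A
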