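import Cfsg.Agent.H745.J3A.Sp
import Cfsg.Agent.H770.Hen.JDefs

/-!
# The group `R₀ = 2^{1+4}_-` in coordinates (S5175, StJA; helper745)
-/
set_option autoImplicit false

namespace Cfsg.Agent.H745.J3A

open Cfsg.Agent.J2Type.QStruct Cfsg.Agent.J2Type.Model Cfsg Cfsg.Agent.H770.Hen
open Equiv (Perm)

/-! ## Abstract: `Ext` from the five involutions -/

section
variable {E : Type*} [Group E] {z : E} {v : Fin 5 → E}

theorem ext_of (z_ne : z ≠ 1) (z_sq : z * z = 1) (z_comm : ∀ c, c * z = z * c)
    (F : Five (⊤ : Subgroup E) z v) (d2 : ∀ i, v i ≠ 1 ∧ v i ≠ z)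
    (d3 : ∀ i j, i ≠ j → v i ≠ v j ∧ v i ≠ z * v j) : Ext z v := by
  have hmul : ∀ x y y' : E, (x * y = y * x ∨ x * y = z * (y * x)) → (x * y' = y' * x ∨ x * y' = z * (y' * x)) →
      (x * (y * y') = y * y' * x ∨ x * (y * y') = z * (y * y' * x)) := by
    rintro x y y' (h | h) (h' | h')
    · left; rw [← mul_assoc, h, mul_assoc, h', ← mul_assoc]
    · right
      rw [← mul_assoc, h, mul_assoc, h', ← mul_assoc, z_comm y]
      simp only [mul_assoc]
    · right; rw [← mul_assoc, h, mul_assoc, mul_assoc, h']; simp only [mul_assoc]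
    · left
      rw [← mul_assoc, h, mul_assoc, mul_assoc, h', ← mul_assoc y, z_comm y]
      calc z * (z * y * (y' * x)) = z * z * (y * y' * x) := by simp only [mul_assoc]
        _ = y * y' * x := by rw [z_sq, one_mul]
  have hcov : ∀ x : E, (x * z = z * x ∨ x * z = z * (z * x)) → (∀ i, x * v i = v i * x ∨ x * v i = z * (v i * x)) →
      ∀ y, x * y = y * x ∨ x * y = z * (y * x) := by
    intro x hz hv y
    rcases F.cover y (Subgroup.mem_top _) with (h1 | h1) | ⟨j, h1 | h1⟩ | ⟨j, k, -, h1 | h1⟩
    · left; rw [h1, mul_one, one_mul]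
    · rw [h1]; exact hz
    · rw [h1]; exact hv j
    · rw [h1]; exact hmul _ _ _ hz (hv j)
    · rw [h1]; exact hmul _ _ _ (hv j) (hv k)
    · rw [h1]; exact hmul _ _ _ hz (hmul _ _ _ (hv j) (hv k))
  have hvv : ∀ i j, v i * v j = v j * v i ∨ v i * v j = z * (v j * v i) := by
    intro i j
    by_cases hij : i = j
    · left; rw [hij]
    · right; exact F.anti i j hij
  have hsym : ∀ x y : E, (x * y = y * x ∨ x * y = z * (y * x)) → (y * x = x * y ∨ y * x = z * (x * y)) := by
    rintro x y (h | h)
    · left; exact h.symm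
    · right; rw [h, ← mul_assoc, z_sq, one_mul]
  have hcomm : ∀ x y : E, x * y = y * x ∨ x * y = z * (y * x) := by
    intro x y
    apply hcov x (Or.inl (z_comm x)) ?_ y
    intro i
    apply hsym
    exact hcov (v i) (Or.inl (z_comm _)) (fun j => hvv i j) x
  have hij2 : ∀ i j, i ≠ j → (v i * v j) * (v i * v j) = z := by
    intro j k hjk
    calc (v j * v k) * (v j * v k) = v j * (v k * v j) * v k := by group
      _ = v j * (z * (v j * v k)) * v k := by rw [F.anti k j hjk.symm]
      _ = (v j * z) * v j * (v k * v k) := by group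
      _ = (z * v j) * v j * (v k * v k) := by rw [z_comm]
      _ = z * (v j * v j) * (v k * v k) := by group
      _ = z := by rw [F.sq, F.sq, mul_one, mul_one]
  refine ⟨⟨z_ne, z_sq, z_comm, Subgroup.mem_top _, fun x _ y _ => hcomm x y, fun x _ => ?_, fun c hc => ?_⟩, F, d2, d3⟩
  · rcases F.cover x (Subgroup.mem_top _) with (h1 | h1) | ⟨j, h1 | h1⟩ | ⟨j, k, hjk, h1 | h1⟩
    · left; rw [h1, mul_one]
    · left; rw [h1, z_sq]
    · left; rw [h1, F.sq]
    · left
      rw [h1]
      calc z * v j * (z * v j) = z * (v j * z) * v j := by group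
        _ = z * (z * v j) * v j := by rw [z_comm]
        _ = z * z * (v j * v j) := by group
        _ = 1 := by rw [z_sq, F.sq, mul_one]
    · right; rw [h1, hij2 j k hjk.ne]
    · right
      rw [h1]
      calc z * (v j * v k) * (z * (v j * v k)) = z * ((v j * v k) * z) * (v j * v k) := by group
        _ = z * (z * (v j * v k)) * (v j * v k) := by rw [z_comm]
        _ = z * z * (v j * v k * (v j * v k)) := by group
        _ = z := by rw [z_sq, hij2 j k hjk.ne, one_mul]
  · have hc' : ∀ q, c * q = q * c := fun q => hc q (Subgroup.mem_top _)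
    have hno : ∀ x y : E, x * y = z * (y * x) → x * y ≠ y * x := by
      intro x y h1 h2
      rw [h1] at h2
      have h3 : z * (y * x) = 1 * (y * x) := by rw [one_mul]; exact h2
      exact z_ne (mul_right_cancel h3)
    have hex : ∀ j : Fin 5, ∃ k, j ≠ k := by decide
    rcases F.cover c (Subgroup.mem_top _) with (h1 | h1) | ⟨j, h1 | h1⟩ | ⟨j, k, hjk, h1 | h1⟩
    · exact Or.inl h1
    · exact Or.inr h1
    · exfalso
      obtain ⟨k, hjk⟩ := hex j
      apply hno _ _ (F.anti j k hjk)
      rw [← h1]
      exact hc' _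
    · exfalso
      obtain ⟨k, hjk⟩ := hex j
      apply hno _ _ (F.anti j k hjk)
      have h2 := hc' (v k)
      rw [h1, mul_assoc, ← mul_assoc (v k), z_comm (v k), mul_assoc] at h2
      exact mul_left_cancel h2
    · exfalso
      have h2 := hc' (v j)
      rw [h1] at h2
      have h3 : v j * v k * v j = z * (v j * (v j * v k)) := by
        rw [mul_assoc, F.anti k j hjk.ne', ← mul_assoc (v j), z_comm]
        simp only [mul_assoc]
      exact hno _ _ h3 h2
    · exfalso
      have h2 := hc' (v j)
      rw [h1, mul_assoc, ← mul_assoc (v j) z, z_comm (v j), mul_assoc z (v j)] at h2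
      have h2' := mul_left_cancel h2
      have h3 : v j * v k * v j = z * (v j * (v j * v k)) := by
        rw [mul_assoc, F.anti k j hjk.ne', ← mul_assoc (v j), z_comm]
        simp only [mul_assoc]
      exact hno _ _ h3 h2'

end

/-! ## The field with four elements -/

section
variable {K : Type} [Field K]

/-- `ω² = ω + 1` -/
structure Om (w : K) : Prop where
  two : (2 : K) = 0
  sq : w * w = w + 1
  w0 : w ≠ 0
  w1 : w ≠ 1
  all : ∀ x : K, x = 0 ∨ x = 1 ∨ x = w ∨ x = w + 1

theorem exists_om [Fintype K] (hK : Fintype.card K = 4) : ∃ w : K, Om w := by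
  classical
  have h2 : (2 : K) = 0 := by
    have h1 := Nat.cast_card_eq_zero K
    rw [hK] at h1
    have h3 : (2 : K) * 2 = 0 := by
      have : ((4 : ℕ) : K) = 2 * 2 := by norm_num
      rw [← this]; exact h1
    rcases mul_eq_zero.1 h3 with h | h <;> exact h
  obtain ⟨w, hw0, hw1⟩ : ∃ w : K, w ≠ 0 ∧ w ≠ 1 := by
    by_contra hcon
    push Not at hcon
    have h1 : (Finset.univ : Finset K) ⊆ {0, 1} := by
      intro k _
      by_cases h0 : k = 0
      · simp [h0]
      · simp [hcon k h0]
    have h3 := Finset.card_le_card h1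
    rw [Finset.card_univ, hK] at h3
    have h4 := Finset.card_le_two (a := (0 : K)) (b := 1)
    omega
  have hw3 : w ^ 3 = 1 := by
    have := FiniteField.pow_card_sub_one_eq_one w hw0
    rwa [hK] at this
  have hsq : w * w = w + 1 := by
    have h3 : (w - 1) * (w * w + w + 1) = 0 := by linear_combination hw3
    rcases mul_eq_zero.1 h3 with h | h
    · exact absurd (sub_eq_zero.1 h) hw1
    · linear_combination h - (w + 1) * h2
  refine ⟨w, h2, hsq, hw0, hw1, ?_⟩
  have hcard : ({0, 1, w, w + 1} : Finset K).card = 4 := by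
    rw [Finset.card_insert_of_notMem, Finset.card_insert_of_notMem, Finset.card_insert_of_notMem,
      Finset.card_singleton]
    · simp
    · simp only [Finset.mem_insert, Finset.mem_singleton, not_or]
      refine ⟨fun h => hw1 h.symm, fun h => hw0 ?_⟩
      linear_combination -h
    · simp only [Finset.mem_insert, Finset.mem_singleton, not_or]
      refine ⟨zero_ne_one, fun h => hw0 h.symm, fun h => hw1 ?_⟩
      linear_combination -h - h2
  have huniv : ({0, 1, w, w + 1} : Finset K) = Finset.univ := by
    apply Finset.eq_univ_of_card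
    rw [hcard, hK]
  intro x
  have h5 : x ∈ ({0, 1, w, w + 1} : Finset K) := by rw [huniv]; exact Finset.mem_univ _
  simpa using h5

namespace Om

variable {w : K} (O : Om w)
include O

theorem aa (a : K) : a + a = 0 := by rw [← two_mul, O.two, zero_mul]

theorem neg (a : K) : -a = a := neg_eq_of_add_eq_zero_left (O.aa a)

theorem w2 : w + 1 ≠ 0 := fun h => O.w1 (by linear_combination h - O.two)

theorem w3 : w + 1 ≠ 1 := fun h => O.w0 (by linear_combination h)

omit O in
theorem w4 : w + 1 ≠ w := fun h => one_ne_zero (by linear_combination h : (1 : K) = 0)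

theorem cube {a : K} (ha : a ≠ 0) : a * a * a = 1 := by
  rcases O.all a with rfl | rfl | rfl | rfl
  · exact absurd rfl ha
  · ring
  · linear_combination (a + 1) * O.sq + a * O.two
  · linear_combination (w + 4) * O.sq + (4 * w + 2) * O.two

theorem four (a : K) : a * a * (a * a) = a := by
  by_cases ha : a = 0
  · rw [ha]; ring
  · have := O.cube ha
    linear_combination a * this

end Om

/-- the enumeration `0, 1, ω, ω + 1` -/
def ka (w : K) : Fin 4 → K := ![0, 1, w, w + 1]

theorem ka_surj {w : K} (O : Om w) (x : K) : ∃ i, ka w i = x := by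
  rcases O.all x with rfl | rfl | rfl | rfl
  · exact ⟨0, rfl⟩
  · exact ⟨1, rfl⟩
  · exact ⟨2, rfl⟩
  · exact ⟨3, rfl⟩

theorem ka_inj {w : K} (O : Om w) : Function.Injective (ka w) := by
  have h01 : (0 : K) ≠ 1 := zero_ne_one
  have h0w : (0 : K) ≠ w := O.w0.symm
  have h1w : (1 : K) ≠ w := O.w1.symm
  have h0v : (0 : K) ≠ w + 1 := O.w2.symm
  have h1v : (1 : K) ≠ w + 1 := O.w3.symm
  have hwv : w ≠ w + 1 := Om.w4.symm
  intro i j hij
  fin_cases i <;> fin_cases j <;>
    first
      | rfl
      | exact absurd hij h01 | exact absurd hij h01.symm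
      | exact absurd hij h0w | exact absurd hij h0w.symm
      | exact absurd hij h1w | exact absurd hij h1w.symm
      | exact absurd hij h0v | exact absurd hij h0v.symm
      | exact absurd hij h1v | exact absurd hij h1v.symm
      | exact absurd hij hwv | exact absurd hij hwv.symm

end

end Cfsg.Agent.H745.J3A
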