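import Cfsg.Agent.H745.J3A.Act
import Cfsg.Agent.H802.FusEss

/-!
# The automizer of `R₀ = 2^{1+4}_-` (S5175, StJA; helper745)
-/
set_option autoImplicit false

namespace Cfsg.Agent.H745.J3A

open Cfsg.Agent.J2Type.QStruct Cfsg.Agent.J2Type.Model Cfsg Cfsg.Agent.H770.Hen Cfsg.Agent.H802
open Equiv (Perm)

universe u

theorem stJA : StJA.{u} := by
  intro Ω _ S hfinS hS F hF K _ _ σ R D
  have hfp : Fact (Nat.Prime 2) := ⟨Nat.prime_two⟩
  obtain ⟨w, O⟩ := exists_om D.card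
  have hf := D.frob
  have hy := D.y_sq
  have X := ext R O hf hy
  obtain ⟨ρ, hρ⟩ := exists_rho X
  have hn := D.ess.2.1
  have hRS : R.R0 ≤ S := hn.1
  have hfinR : Finite R.R0 := Finite.of_injective (Subgroup.inclusion hRS) (Subgroup.inclusion_injective hRS)
  -- the group induced by `S`
  have hnor : ∀ a b c : K, R.e a b c ∈ Subgroup.normalizer (R.R0 : Set Ω) := by
    intro a b c
    refine Subgroup.mem_normalizer_iff.2 fun x => ⟨e_conj_mem R O hf a b c, fun h => ?_⟩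
    have h1 := e_conj_mem R O hf (-a) (-b) (-c + a * b) h
    rw [← R.e_inv] at h1
    have h2 : (R.e a b c)⁻¹ * (R.e a b c * x * (R.e a b c)⁻¹) * (R.e a b c)⁻¹⁻¹ = x := by group
    rwa [h2] at h1
  have hInnH : ∀ q : R.R0, MulAut.conj q ∈ autInducedBy S R.R0 := fun q =>
    conj_mem_autInducedBy (hRS q.2) (fun x => rfl)
  have hHA : autInducedBy S R.R0 ≤ F.autGroup R.R0 := autInducedBy_le_autGroup F hRS
  have hHsh : ∀ α ∈ autInducedBy S R.R0, ∃ t, Sh w t (ρ α).σ := by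
    intro α hα
    obtain ⟨g, hg, hgα⟩ := (mem_autInducedBy_iff S R.R0 α).1 hα
    rw [D.fs.S_eq] at hg
    obtain ⟨a, b, c, hgc | hgc⟩ := hg
    · exact ⟨_, sh_of R hf hρ X (fun x => by rw [hgα, hgc])⟩
    · obtain ⟨β, hβ⟩ := exists_conjAut (hnor a b c)
      have h1 : α = β * MulAut.conj ⟨R.y, y_mem R hf⟩ := by
        apply MulEquiv.ext
        intro x
        apply Subtype.ext
        rw [hgα, hgc, MulAut.mul_apply, hβ, MulAut.conj_apply]
        show _ = R.e a b c * (R.y * (x : Ω) * R.y⁻¹) * (R.e a b c)⁻¹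
        group
      have h2 : (ρ α).σ = (ρ β).σ := by
        rw [h1, map_mul, mul_σ, conj_σ X hρ, mul_one]
      rw [h2]
      exact ⟨_, sh_of R hf hρ X hβ⟩
  have hHall : ∀ x : Perm (Fin 5), Perm.sign x = 1 → x * x = 1 → x 0 = 0 →
      ∃ α ∈ autInducedBy S R.R0, (ρ α).σ = x := by
    intro x hx hx2 hx0
    obtain ⟨j, hj⟩ : ∃ j : Fin 4, x 1 = j.succ := by
      refine ⟨(x 1).pred ?_, (Fin.succ_pred _ _).symm⟩
      intro h3
      rw [← hx0] at h3
      exact absurd (x.injective h3) (by decide)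
    obtain ⟨β, hβ⟩ := exists_conjAut (hnor (ka w j) 0 0)
    have hβH : β ∈ autInducedBy S R.R0 :=
      conj_mem_autInducedBy (D.fs.T_le (R.e_mem_T _ _ _)) hβ
    refine ⟨β, hβH, ?_⟩
    have hsh := sh_of R hf hρ X hβ
    symm
    apply pb x hx hx2 hx0 _ (Sh.sign O hsh) (Sh.sq O hsh) hsh.1
    obtain ⟨k, hk1, hk2⟩ := hsh.2 0
    have hk3 : k = j := by
      apply ka_inj O
      rw [hk2]
      show 0 + (ka w j + 0 * 0) = ka w j
      ring
    rw [hj, ← hk3]
    exact hk1.symm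
  have hHmem : ∀ α : MulAut R.R0, Perm.sign (ρ α).σ = 1 → (ρ α).σ * (ρ α).σ = 1 → (ρ α).σ 0 = 0 →
      α ∈ autInducedBy S R.R0 := by
    intro α h1 h2 h3
    obtain ⟨β, hβ, hβe⟩ := hHall _ h1 h2 h3
    have h4 : pm ρ (β⁻¹ * α) = 1 := by
      rw [map_mul, map_inv, pm_apply, pm_apply, hβe, inv_mul_cancel]
    obtain ⟨q, hq⟩ := exists_conj_of_one X hρ h4
    have h5 := (autInducedBy S R.R0).mul_mem hβ (hInnH q)
    rwa [← hq, mul_inv_cancel_left] at h5
  have hHsign : ∀ α ∈ autInducedBy S R.R0, Perm.sign (ρ α).σ = 1 := by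
    intro α hα
    obtain ⟨t, ht⟩ := hHsh α hα
    exact Sh.sign O ht
  -- all automorphisms in `F` are even
  have hev : ∀ α ∈ F.autGroup R.R0, Perm.sign (ρ α).σ = 1 := by
    obtain ⟨-, P, hP⟩ := isFullyAutomized_of_isFullyNormalized hS hF hn
    intro α hα
    obtain ⟨-, m, hm, k, hk⟩ := exists_pow α
    have hαm : α ^ m ∈ F.autGroup R.R0 := Subgroup.pow_mem _ hα m
    have hp : IsPGroup 2 (Subgroup.zpowers (⟨α ^ m, hαm⟩ : F.autGroup R.R0)) := by
      rintro ⟨x, n, rfl⟩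
      refine ⟨k, Subtype.ext (Subtype.ext ?_)⟩
      show ((α ^ m) ^ n) ^ 2 ^ k = 1
      rw [← zpow_natCast, ← zpow_mul, mul_comm, zpow_mul, zpow_natCast, hk, one_zpow]
    obtain ⟨P', hP'⟩ := hp.exists_le_sylow
    obtain ⟨g, hg⟩ := MulAction.exists_smul_eq (F.autGroup R.R0) P' P
    have h1 : g * ⟨α ^ m, hαm⟩ * g⁻¹ ∈ (P : Subgroup (F.autGroup R.R0)) := by
      rw [← hg]
      exact Subgroup.smul_mem_pointwise_smul _ (MulAut.conj g) _ (hP' (Subgroup.mem_zpowers _))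
    rw [hP, Subgroup.mem_subgroupOf] at h1
    have h2 := hHsign _ h1
    have h3 : Perm.sign (pm ρ ((g : MulAut R.R0) * α ^ m * (g : MulAut R.R0)⁻¹)) = 1 := h2
    have h5 : Perm.sign (pm ρ ((g : MulAut R.R0) * α ^ m * (g : MulAut R.R0)⁻¹)) = Perm.sign (pm ρ α) ^ m := by
      rw [map_mul (pm ρ), map_mul (pm ρ), map_pow (pm ρ), map_inv (pm ρ), map_mul Perm.sign, map_mul Perm.sign,
        map_pow Perm.sign, map_inv Perm.sign, mul_comm, inv_mul_cancel_left]
    rw [h5] at h3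
    rcases Int.units_eq_one_or (Perm.sign (pm ρ α)) with h4 | h4
    · exact h4
    · exfalso
      rw [h4, hm.neg_one_pow] at h3
      exact absurd h3 (by decide)
  -- something moves `0`
  have hmov : ∃ α ∈ F.autGroup R.R0, (ρ α).σ 0 ≠ 0 := by
    by_contra hcon
    push Not at hcon
    obtain ⟨E, hEA, hEne, hE⟩ := exists_proper_of_isEssential hS hF D.ess
    apply hEne
    apply le_antisymm hEA
    intro α hα
    apply hE α hα
    obtain ⟨β, hβ⟩ := exists_conjAut (hnor 1 0 0)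
    have hgS : R.e 1 0 0 ∈ S := D.fs.T_le (R.e_mem_T _ _ _)
    have hβH : β ∈ autInducedBy S R.R0 := conj_mem_autInducedBy hgS hβ
    refine extends_of_conj_mem (isReceptive_of_isFullyNormalized hS hF hn) hα hgS ?_ hβ ?_
    · intro h
      obtain ⟨a, c, h1 | h1⟩ := (mem_R0 R hf).1 h
      · obtain ⟨h2, h3, -⟩ := R.e_inj h1
        rw [← h2, mul_one] at h3
        exact zero_ne_one h3
      · exact R.e_mul_y_ne _ _ _ _ _ _ h1.symm
    · have hsh := sh_of R hf hρ X hβ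
      have h1 : (ρ (α * β * α⁻¹)).σ = pm ρ α * (ρ β).σ * (pm ρ α)⁻¹ := by
        rw [← pm_apply, map_mul, map_mul, map_inv, pm_apply ρ β]
      apply hHmem
      · rw [h1, map_mul, map_mul, Sh.sign O hsh, map_inv, mul_one, mul_inv_cancel]
      · rw [h1]
        calc pm ρ α * (ρ β).σ * (pm ρ α)⁻¹ * (pm ρ α * (ρ β).σ * (pm ρ α)⁻¹) =
            pm ρ α * ((ρ β).σ * (ρ β).σ) * (pm ρ α)⁻¹ := by simp only [mul_assoc, inv_mul_cancel_left]
          _ = 1 := by rw [Sh.sq O hsh, mul_one, mul_inv_cancel]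
      · rw [h1, Perm.mul_apply, Perm.mul_apply]
        have h2 : (pm ρ α)⁻¹ 0 = 0 := by
          rw [Perm.inv_eq_iff_eq]
          exact (hcon α hα).symm
        rw [h2, hsh.1]
        exact hcon α hα
  -- conclusion
  apply eq_pResidual X hρ _ (fun q => hHA (hInnH q)) hev
  obtain ⟨g, hg, hg0⟩ := hmov
  intro x hx
  have h1 : x ∈ (F.autGroup R.R0).map (pm ρ) := by
    refine alt_le (fun y hy1 hy2 hy3 => ?_) (Subgroup.mem_map_of_mem _ hg) hg0 x hx
    obtain ⟨α, hα, hαy⟩ := hHall y hy1 hy2 hy3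
    exact ⟨α, hHA hα, hαy⟩
  obtain ⟨α, hα, hαx⟩ := h1
  exact ⟨α, hα, hαx⟩

end Cfsg.Agent.H745.J3A
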