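import Cfsg.Agent.H745.J3A.Coord

/-!
# The group `R₀ = 2^{1+4}_-` in coordinates, II (S5175, StJA; helper745)
-/
set_option autoImplicit false

namespace Cfsg.Agent.H745.J3A

open Cfsg.Agent.J2Type.QStruct Cfsg.Agent.J2Type.Model Cfsg Cfsg.Agent.H770.Hen
open Equiv (Perm)

section
variable {Ω : Type*} [Group Ω] {K : Type} [Field K] {σ : K ≃+* K} (R : Rel Ω K σ)

/-- the elements `e(a, a², c)` -/
def dd (a c : K) : Ω := R.e a (a * a) c

variable {w : K} (O : Om w) (hf : ∀ a, σ a = a * a) (hy : R.y * R.y = 1)

theorem dd_zero : dd R 0 0 = 1 := by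
  unfold dd
  rw [mul_zero, R.e_zero]

include O in
theorem dd_mul (a c a' c' : K) : dd R a c * dd R a' c' = dd R (a + a') (c + c' + a * (a' * a')) := by
  unfold dd
  rw [R.e_mul]
  congr 1
  linear_combination -(a * a') * O.two

theorem dd_inj {a c a' c' : K} (h : dd R a c = dd R a' c') : a = a' ∧ c = c' :=
  ⟨(R.e_inj h).1, (R.e_inj h).2.2⟩

theorem ddy_ne (a c a' c' : K) : dd R a c * R.y ≠ dd R a' c' := R.e_mul_y_ne _ _ _ _ _ _

include O hf in
theorem y_dd (a c : K) : R.y * dd R a c = dd R a ((c + a * (a * a)) * (c + a * (a * a))) * R.y := by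
  unfold dd
  have h := R.y_e a (a * a) c
  rw [hf, hf, hf, O.four] at h
  rw [← h, inv_mul_cancel_right]

include O hf hy in
theorem ddy_mul (a b : K) : dd R a 0 * R.y * (dd R b 0 * R.y) = dd R (a + b) (b * (b * b) + a * (b * b)) := by
  have h1 : dd R a 0 * R.y * (dd R b 0 * R.y) = dd R a 0 * (R.y * dd R b 0) * R.y := by group
  rw [h1, y_dd R O hf, ← mul_assoc, mul_assoc, hy, mul_one, dd_mul R O]
  congr 1
  have := O.four b
  linear_combination b ^ 2 * this

include O in
theorem dd_ddy (a c a' c' : K) : dd R a c * (dd R a' c' * R.y) = dd R (a + a') (c + c' + a * (a' * a')) * R.y := by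
  rw [← mul_assoc, dd_mul R O]

include O hf in
theorem ddy_dd (a c a' c' : K) : dd R a c * R.y * dd R a' c' =
    dd R (a + a') (c + (c' + a' * (a' * a')) * (c' + a' * (a' * a')) + a * (a' * a')) * R.y := by
  rw [mul_assoc, y_dd R O hf, ← mul_assoc, dd_mul R O]

include hf in
theorem mem_R0 {s : Ω} : s ∈ R.R0 ↔ ∃ a c, s = dd R a c ∨ s = dd R a c * R.y := by
  rw [R.mem_R0]
  simp only [hf]
  exact Iff.rfl

include hf in
theorem dd_mem (a c : K) : dd R a c ∈ R.R0 := (mem_R0 R hf).2 ⟨a, c, Or.inl rfl⟩

include hf in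
theorem ddy_mem (a c : K) : dd R a c * R.y ∈ R.R0 := (mem_R0 R hf).2 ⟨a, c, Or.inr rfl⟩

/-- the central involution -/
def zz : R.R0 := ⟨dd R 0 1, dd_mem R hf 0 1⟩

/-- the five involutions -/
def vv (w : K) : Fin 5 → R.R0 :=
  Fin.cons ⟨dd R 0 w, dd_mem R hf 0 w⟩ fun i => ⟨dd R (ka w i) 0 * R.y, ddy_mem R hf _ _⟩

theorem vv_zero (w : K) : ((vv R hf w 0 : R.R0) : Ω) = dd R 0 w := rfl

theorem vv_succ (w : K) (i : Fin 4) : ((vv R hf w i.succ : R.R0) : Ω) = dd R (ka w i) 0 * R.y := rfl

theorem zz_coe : ((zz R hf : R.R0) : Ω) = dd R 0 1 := rfl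

include O hy in
theorem five : Five (⊤ : Subgroup R.R0) (zz R hf) (vv R hf w) where
  mem i := Subgroup.mem_top _
  sq i := by
    apply Subtype.ext
    rw [Subgroup.coe_mul, Subgroup.coe_one]
    induction i using Fin.cases with
    | zero =>
      rw [vv_zero, dd_mul R O, ← dd_zero R]
      congr 1
      · ring
      · linear_combination w * O.two
    | succ i =>
      rw [vv_succ, ddy_mul R O hf hy, ← dd_zero R]
      congr 1
      · exact O.aa _
      · linear_combination (ka w i) ^ 3 * O.two
  anti i j hij := by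
    apply Subtype.ext
    rw [Subgroup.coe_mul, Subgroup.coe_mul, Subgroup.coe_mul, zz_coe]
    induction i using Fin.cases with
    | zero =>
      induction j using Fin.cases with
      | zero => exact absurd rfl hij
      | succ j =>
        rw [vv_zero, vv_succ, dd_ddy R O, ddy_dd R O hf, dd_ddy R O]
        congr 2
        · ring
        · linear_combination -O.sq - O.two
    | succ i =>
      induction j using Fin.cases with
      | zero =>
        rw [vv_zero, vv_succ, ddy_dd R O hf, dd_ddy R O, dd_ddy R O]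
        congr 2
        · ring
        · linear_combination O.sq
      | succ j =>
        have hne : ka w i ≠ ka w j := fun h => hij (congrArg Fin.succ (ka_inj O h))
        have hne' : ka w i + ka w j ≠ 0 := by
          intro h
          apply hne
          have h2 := O.aa (ka w j)
          linear_combination h - h2
        rw [vv_succ, vv_succ, ddy_mul R O hf hy, ddy_mul R O hf hy, dd_mul R O]
        have h3 := O.cube hne'
        set a := ka w i
        set b := ka w j
        congr 1
        · ring
        · linear_combination h3 + (-(a ^ 3) - 2 * a ^ 2 * b - a * b ^ 2) * O.two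
  prod := by
    apply Subtype.ext
    rw [Subgroup.coe_mul, Subgroup.coe_mul, Subgroup.coe_mul, Subgroup.coe_mul, Subgroup.coe_one]
    have h0 : ((vv R hf w 0 : R.R0) : Ω) = dd R 0 w := rfl
    have h1 : ((vv R hf w 1 : R.R0) : Ω) = dd R 0 0 * R.y := rfl
    have h2 : ((vv R hf w 2 : R.R0) : Ω) = dd R 1 0 * R.y := rfl
    have h3 : ((vv R hf w 3 : R.R0) : Ω) = dd R w 0 * R.y := rfl
    have h4 : ((vv R hf w 4 : R.R0) : Ω) = dd R (w + 1) 0 * R.y := rfl
    rw [h0, h1, h2, h3, h4]
    have h5 : dd R 0 w * (dd R 0 0 * R.y) * (dd R 1 0 * R.y) * (dd R w 0 * R.y) * (dd R (w + 1) 0 * R.y) =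
        dd R 0 w * ((dd R 0 0 * R.y) * (dd R 1 0 * R.y)) * ((dd R w 0 * R.y) * (dd R (w + 1) 0 * R.y)) := by
      simp only [mul_assoc]
    rw [h5, ddy_mul R O hf hy, ddy_mul R O hf hy, dd_mul R O, dd_mul R O, ← dd_zero R]
    have hs := O.sq
    have ht := O.two
    congr 1
    · linear_combination (w + 1) * ht
    · grind
  cover q _ := by
    obtain ⟨a, c, h⟩ := (mem_R0 R hf).1 q.2
    have hc : ∀ (i : Fin 4) (c : K), dd R (ka w i) c * R.y = ((vv R hf w i.succ : R.R0) : Ω) ∨
        dd R (ka w i) c * R.y = ((zz R hf * vv R hf w i.succ : R.R0) : Ω) ∨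
        dd R (ka w i) c * R.y = ((vv R hf w 0 * vv R hf w i.succ : R.R0) : Ω) ∨
        dd R (ka w i) c * R.y = ((zz R hf * (vv R hf w 0 * vv R hf w i.succ) : R.R0) : Ω) := by
      intro i c
      rw [Subgroup.coe_mul, Subgroup.coe_mul, Subgroup.coe_mul, Subgroup.coe_mul, zz_coe, vv_zero, vv_succ, ← mul_assoc,
        ← mul_assoc, ← mul_assoc, dd_mul R O, dd_mul R O, dd_mul R O]
      rcases O.all c with rfl | rfl | rfl | rfl
      · left; rfl
      · right; left
        congr 2 <;> ring
      · right; right; left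
        congr 2 <;> ring
      · right; right; right
        congr 2 <;> ring
    have hp : ∀ i j : Fin 4, ((vv R hf w i.succ * vv R hf w j.succ : R.R0) : Ω) =
        dd R (ka w i + ka w j) (ka w j * (ka w j * ka w j) + ka w i * (ka w j * ka w j)) := by
      intro i j
      rw [Subgroup.coe_mul, vv_succ, vv_succ, ddy_mul R O hf hy]
    have hzp : ∀ i j : Fin 4, ((zz R hf * (vv R hf w i.succ * vv R hf w j.succ) : R.R0) : Ω) =
        dd R (ka w i + ka w j) (1 + (ka w j * (ka w j * ka w j) + ka w i * (ka w j * ka w j))) := by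
      intro i j
      rw [Subgroup.coe_mul, hp, zz_coe, dd_mul R O]
      congr 1
      · rw [zero_add]
      · ring
    have k0 : ka w 0 = 0 := rfl
    have k1 : ka w 1 = 1 := rfl
    have k2 : ka w 2 = w := rfl
    have k3 : ka w 3 = w + 1 := rfl
    have ht := O.two
    have hs := O.sq
    rcases h with h | h
    · rcases O.all a with rfl | rfl | rfl | rfl
      · rcases O.all c with rfl | rfl | rfl | rfl
        · left; left; apply Subtype.ext; rw [h, dd_zero]; rfl
        · left; right; apply Subtype.ext; rw [h]; rfl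
        · right; left; exact ⟨0, Or.inl (Subtype.ext h)⟩
        · right; left
          refine ⟨0, Or.inr (Subtype.ext ?_)⟩
          rw [h, Subgroup.coe_mul, zz_coe, vv_zero, dd_mul R O]
          congr 1 <;> ring
      · rcases O.all c with rfl | rfl | rfl | rfl
        · right; right
          refine ⟨(0 : Fin 4).succ, (1 : Fin 4).succ, by decide, Or.inr (Subtype.ext ?_)⟩
          rw [h, hzp, k0, k1]
          congr 1 <;> grind
        · right; right
          refine ⟨(0 : Fin 4).succ, (1 : Fin 4).succ, by decide, Or.inl (Subtype.ext ?_)⟩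
          rw [h, hp, k0, k1]
          congr 1 <;> grind
        · right; right
          refine ⟨(2 : Fin 4).succ, (3 : Fin 4).succ, by decide, Or.inl (Subtype.ext ?_)⟩
          rw [h, hp, k2, k3]
          congr 1 <;> grind
        · right; right
          refine ⟨(2 : Fin 4).succ, (3 : Fin 4).succ, by decide, Or.inr (Subtype.ext ?_)⟩
          rw [h, hzp, k2, k3]
          congr 1 <;> grind
      · rcases O.all c with hc0 | hc0 | hc0 | hc0
        · right; right
          refine ⟨(0 : Fin 4).succ, (2 : Fin 4).succ, by decide, Or.inr (Subtype.ext ?_)⟩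
          rw [h, hzp, k0, k2, hc0]
          congr 1 <;> grind
        · right; right
          refine ⟨(0 : Fin 4).succ, (2 : Fin 4).succ, by decide, Or.inl (Subtype.ext ?_)⟩
          rw [h, hp, k0, k2, hc0]
          congr 1 <;> grind
        · right; right
          refine ⟨(1 : Fin 4).succ, (3 : Fin 4).succ, by decide, Or.inr (Subtype.ext ?_)⟩
          rw [h, hzp, k1, k3, hc0]
          congr 1 <;> grind
        · right; right
          refine ⟨(1 : Fin 4).succ, (3 : Fin 4).succ, by decide, Or.inl (Subtype.ext ?_)⟩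
          rw [h, hp, k1, k3, hc0]
          congr 1 <;> grind
      · rcases O.all c with hc0 | hc0 | hc0 | hc0
        · right; right
          refine ⟨(0 : Fin 4).succ, (3 : Fin 4).succ, by decide, Or.inr (Subtype.ext ?_)⟩
          rw [h, hzp, k0, k3, hc0]
          congr 1 <;> grind
        · right; right
          refine ⟨(0 : Fin 4).succ, (3 : Fin 4).succ, by decide, Or.inl (Subtype.ext ?_)⟩
          rw [h, hp, k0, k3, hc0]
          congr 1 <;> grind
        · right; right
          refine ⟨(1 : Fin 4).succ, (2 : Fin 4).succ, by decide, Or.inl (Subtype.ext ?_)⟩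
          rw [h, hp, k1, k2, hc0]
          congr 1 <;> grind
        · right; right
          refine ⟨(1 : Fin 4).succ, (2 : Fin 4).succ, by decide, Or.inr (Subtype.ext ?_)⟩
          rw [h, hzp, k1, k2, hc0]
          congr 1 <;> grind
    · obtain ⟨i, rfl⟩ := ka_surj O a
      rcases hc i c with h1 | h1 | h1 | h1
      · right; left; exact ⟨i.succ, Or.inl (Subtype.ext (h.trans h1))⟩
      · right; left; exact ⟨i.succ, Or.inr (Subtype.ext (h.trans h1))⟩
      · right; right; exact ⟨0, i.succ, Fin.succ_pos i, Or.inl (Subtype.ext (h.trans h1))⟩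
      · right; right; exact ⟨0, i.succ, Fin.succ_pos i, Or.inr (Subtype.ext (h.trans h1))⟩

end

end Cfsg.Agent.H745.J3A
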